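import Cfsg.Agent.Walter.J1Setup
import Cfsg.Agent.Local.KleinA5

/-! A 2-central involution `t` with centraliser `⟨t⟩ × A`; the case of alternating groups `A`. -/

set_option autoImplicit false
set_option maxRecDepth 100000

namespace Cfsg.Lib.WalCor

open Cfsg.Lib.Local Cfsg.Lib.Walter Subgroup Equiv
open scoped commutatorElement

section perm

variable {α : Type*} [Fintype α] [DecidableEq α] {a : Perm α} {H : Subgroup (Perm α)}

theorem swap_mul_mem (ha : a * a = 1) (h6 : 6 ≤ Fintype.card α)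
    (hH : IdxLeTwo H (alternatingGroup α ⊓ centralizer {a})) {x y : α} (hx : a x ≠ x) (hy : a y ≠ y)
    (hyx : y ≠ x) (hyx' : y ≠ a x) : swap x (a x) * swap y (a y) ∈ H := by
  have haa : ∀ z, a (a z) = z := fun z => by rw [← Perm.mul_apply, ha, Perm.one_apply]
  have hc : ∀ u v u' v' : α, swap (a u) (a v) * swap (a u') (a v') = swap u v * swap u' v' →
      u ≠ v → u' ≠ v' → swap u v * swap u' v' ∈ alternatingGroup α ⊓ centralizer {a} :=
    fun u v u' v' h h1 h2 => mem_inf.2 ⟨by simp [Perm.sign_swap h1, Perm.sign_swap h2],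
      mem_centralizer_singleton_iff.2 (by
        rw [swap_apply_apply, swap_apply_apply] at h
        calc _ = a * swap u v * a⁻¹ * (a * swap u' v' * a⁻¹) * a := by rw [h]
          _ = _ := by group)⟩
  have hay : a y ≠ x := fun e => hyx' (by rw [← e, haa])
  have hay' : a y ≠ a x := fun e => hyx (a.injective e)
  have hex : ∀ s : Finset α, s.card ≤ 5 → ∃ e, e ∉ s := fun s hs => by
    by_contra h
    push Not at h
    have := Finset.card_le_card (fun e (_ : e ∈ Finset.univ) => h e)
    rw [Finset.card_univ] at this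
    omega
  have hQ : ∀ e, e ∉ ({x, a x, y, a y} : Finset α) → a e ∉ ({x, a x, y, a y} : Finset α) := by
    intro e he h
    simp only [Finset.mem_insert, Finset.mem_singleton, not_or] at he h
    rcases h with h | h | h | h
    exacts [he.2.1 (by rw [← h, haa]), he.1 (a.injective h), he.2.2.2 (by rw [← h, haa]),
      he.2.2.1 (a.injective h)]
  obtain ⟨e, f, hef, he, hf, hs⟩ : ∃ e f, e ≠ f ∧ e ∉ ({x, a x, y, a y} : Finset α) ∧
      f ∉ ({x, a x, y, a y} : Finset α) ∧ swap (a e) (a f) = swap e f := by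
    obtain ⟨e, he⟩ := hex {x, a x, y, a y} (Finset.card_le_four.trans (by norm_num))
    obtain ⟨f, hf⟩ := hex {e, x, a x, y, a y} Finset.card_le_five
    rw [Finset.mem_insert, not_or] at hf
    by_cases h1 : a e = e
    · by_cases h2 : a f = f
      · exact ⟨e, f, Ne.symm hf.1, he, hf.2, by rw [h1, h2]⟩
      · exact ⟨f, a f, Ne.symm h2, hf.2, hQ f hf.2, by rw [haa, swap_comm]⟩
    · exact ⟨e, a e, Ne.symm h1, he, hQ e he, by rw [haa, swap_comm]⟩
  simp only [Finset.mem_insert, Finset.mem_singleton, not_or] at he hf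
  have h1 := hc x (a x) e f (by rw [haa, hs, swap_comm]) hx.symm hef
  have h2 := hc e f y (a y) (by rw [haa, hs, swap_comm (a y)]) hef hy.symm
  have h3 : swap x y * swap (a x) (a y) ∈ alternatingGroup α ⊓ centralizer {a} :=
    hc x y (a x) (a y) (by
      rw [haa, haa]
      exact (Perm.disjoint_swap_swap (by simp [hx, hy, hay, hay'.symm, hyx.symm, hyx'.symm])).commute.eq)
      hyx.symm hay'.symm
  have e1 : swap x y * swap (a x) (a y) * (swap x (a x) * swap e f) * (swap x y * swap (a x) (a y))⁻¹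
      = swap e f * swap y (a y) := by
    set σ := swap x y * swap (a x) (a y) with hσ
    have k1 : σ x = y := by
      rw [hσ, Perm.mul_apply, swap_apply_of_ne_of_ne hx.symm hay.symm, swap_apply_left]
    have k2 : σ (a x) = a y := by
      rw [hσ, Perm.mul_apply, swap_apply_left, swap_apply_of_ne_of_ne hay hy]
    have k3 : σ e = e := by
      rw [hσ, Perm.mul_apply, swap_apply_of_ne_of_ne he.2.1 he.2.2.2,
        swap_apply_of_ne_of_ne he.1 he.2.2.1]
    have k4 : σ f = f := by
      rw [hσ, Perm.mul_apply, swap_apply_of_ne_of_ne hf.2.1 hf.2.2.2,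
        swap_apply_of_ne_of_ne hf.1 hf.2.2.1]
    rw [show σ * (swap x (a x) * swap e f) * σ⁻¹ = σ * swap x (a x) * σ⁻¹ * (σ * swap e f * σ⁻¹) by
      group, ← swap_apply_apply, ← swap_apply_apply, k1, k2, k3, k4]
    exact (Perm.disjoint_swap_swap (by
      simp [hy.symm, hef, Ne.symm he.2.2.1, Ne.symm he.2.2.2, Ne.symm hf.2.2.1,
        Ne.symm hf.2.2.2])).commute.eq
  rw [show swap x (a x) * swap y (a y) = swap x (a x) * swap e f * (swap e f * swap y (a y)) by
    rw [mul_assoc, swap_mul_self_mul], hH.mul_mem_iff h1 h2, ← e1]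
  refine ⟨hH.conj_mem h3 h1, fun h => ?_⟩
  simpa [mul_assoc] using hH.conj_mem (inv_mem h3) (mul_mem (mul_mem h3 h1) (inv_mem h3)) h

/-- In degree at least six an even involution lies in every subgroup of index at most two of its
centraliser in the alternating group. -/
theorem mem_of_idxLeTwo (ha : a * a = 1) (hs : Perm.sign a = 1) (h6 : 6 ≤ Fintype.card α)
    (hH : IdxLeTwo H (alternatingGroup α ⊓ centralizer {a})) : a ∈ H := by
  have haa : ∀ z, a (a z) = z := fun z => by rw [← Perm.mul_apply, ha, Perm.one_apply]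
  have step : ∀ w : Perm α, (∀ z, w z ≠ z → w z = a z ∧ w (a z) = z) → ∀ x, w x ≠ x →
      a x ≠ x ∧ ∀ z, (w * swap x (a x)) z ≠ z → z ≠ x ∧ z ≠ a x ∧ (w * swap x (a x)) z = w z ∧
        (w * swap x (a x)) (a z) = w (a z) := fun w hw x hx => by
    refine ⟨(hw x hx).1 ▸ hx, fun z hz => ?_⟩
    have h1 : z ≠ x := by rintro rfl; exact hz (by simp [(hw z hx).2])
    have h2 : z ≠ a x := by rintro rfl; exact hz (by simp [(hw x hx).1])
    exact ⟨h1, h2, by rw [Perm.mul_apply, swap_apply_of_ne_of_ne h1 h2], by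
      rw [Perm.mul_apply, swap_apply_of_ne_of_ne (fun e => h2 (by rw [← e, haa]))
        (fun e => h1 (a.injective e))]⟩
  have key : ∀ (n : ℕ) (w : Perm α), w.support.card ≤ n → Perm.sign w = 1 →
      (∀ z, w z ≠ z → w z = a z ∧ w (a z) = z) → w ∈ H := by
    intro n
    induction n with
    | zero =>
      intro w hn _ _
      rw [Perm.support_eq_empty_iff.1 (Finset.card_eq_zero.1 (Nat.le_zero.1 hn))]
      exact one_mem _
    | succ n ih =>
      intro w hn hsw hw
      by_cases h1 : w = 1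
      · exact h1 ▸ one_mem _
      obtain ⟨x, hx⟩ : ∃ x, w x ≠ x := not_forall.1 fun h => h1 (Equiv.ext h)
      obtain ⟨hax, hw1⟩ := step w hw x hx
      have hw1' : ∀ z, (w * swap x (a x)) z ≠ z → (w * swap x (a x)) z = a z ∧
          (w * swap x (a x)) (a z) = z := fun z hz => by
        obtain ⟨-, -, k1, k2⟩ := hw1 z hz
        rw [k1] at hz
        rw [k1, k2]
        exact hw z hz
      obtain ⟨y, hy⟩ : ∃ y, (w * swap x (a x)) y ≠ y := not_forall.1 fun h => by
        have := congrArg Perm.sign (Equiv.ext h : w * swap x (a x) = 1)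
        simp [hsw, Perm.sign_swap hax.symm] at this
      obtain ⟨hay, hw2⟩ := step _ hw1' y hy
      have h2 := ih (w * swap x (a x) * swap y (a y)) (by
          refine Nat.le_of_lt_succ ((Finset.card_lt_card ⟨fun z hz => ?_, fun h => ?_⟩).trans_le hn)
          · rw [Perm.mem_support] at hz ⊢
            have k := (hw2 z hz).2.2.1
            rw [k] at hz
            rwa [← (hw1 z hz).2.2.1]
          · have hz := Perm.mem_support.1 (h (Perm.mem_support.2 hx))
            have k := (hw2 x hz).2.2.1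
            rw [k] at hz
            exact (hw1 x hz).1 rfl)
        (by simp [hsw, Perm.sign_swap hax.symm, Perm.sign_swap hay.symm]) fun z hz => by
          obtain ⟨-, -, k1, k2⟩ := hw2 z hz
          rw [k1] at hz
          rw [k1, k2]
          exact hw1' z hz
      rw [mul_assoc] at h2
      exact (mul_mem_cancel_right
        (swap_mul_mem ha h6 hH hax hay (hw1 y hy).1 (hw1 y hy).2.1)).1 h2
  exact key _ a le_rfl hs fun z _ => ⟨rfl, haa z⟩

end perm

/-- `t` is central in the Sylow 2-subgroup `S` and `C(t) = ⟨t⟩ × f A`. -/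
structure TC {G A : Type*} [Group G] [Group A] (t : G) (f : A →* G) (S : Sylow 2 G) : Prop where
  noIdx : ∀ H : Subgroup G, H.index ≠ 2
  ord : orderOf t = 2
  inj : Function.Injective f
  comm : ∀ a, f a * t = t * f a
  ne : ∀ a, f a ≠ t
  cent : ∀ g, g * t = t * g → ∃ a, g = f a ∨ g = t * f a
  tS : t ∈ (S : Subgroup G)
  le : (S : Subgroup G) ≤ centralizer {t}

namespace TC

variable {G A : Type*} [Group G] [Group A] {t : G} {f : A →* G} {S : Sylow 2 G}

theorem tt (h : TC t f S) : t * t = 1 := by rw [← pow_two, ← h.ord, pow_orderOf_eq_one]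

theorem t1 (h : TC t f S) : t ≠ 1 := fun e => h.ne 1 (by rw [map_one, e])

theorem tf_mul_tf (h : TC t f S) (a b : A) : t * f a * (t * f b) = f (a * b) := by
  rw [map_mul, mul_assoc, ← mul_assoc (f a), h.comm, ← mul_assoc, ← mul_assoc, h.tt, one_mul]

theorem idx (h : TC t f S) : IdxLeTwo f.range (centralizer {t}) := fun x hx y hy hx' hy' => by
  obtain ⟨a, rfl | rfl⟩ := h.cent x (mem_cent.1 hx)
  · exact absurd ⟨a, rfl⟩ hx'
  obtain ⟨b, rfl | rfl⟩ := h.cent y (mem_cent.1 hy)
  · exact absurd ⟨b, rfl⟩ hy'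
  exact ⟨_, (h.tf_mul_tf a b).symm⟩

theorem mul_self (h : TC t f S) {g : G} {a : A} (e : g = f a ∨ g = t * f a) :
    g * g = f (a * a) := by
  rcases e with rfl | rfl
  exacts [(map_mul f a a).symm, h.tf_mul_tf a a]

variable [Finite G]

theorem odd (h : TC t f S) : Odd (centralizer ({t} : Set G)).index := by
  rw [← Nat.not_even_iff_odd, even_iff_two_dvd]
  exact fun e => S.not_dvd_index (e.trans (index_dvd_of_le h.le))

omit [Finite G] in
theorem card_cent (h : TC t f S) : Nat.card (centralizer ({t} : Set G)) = Nat.card A * 2 := by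
  have h1 : f.range ≤ centralizer {t} := by rintro _ ⟨a, rfl⟩; exact mem_cent.2 (h.comm a)
  rw [← Trans.card_mul_relIndex h1, (h.idx.le_or_relIndex).resolve_left fun e => by
    obtain ⟨a, ha⟩ := e (mem_cent.2 rfl); exact h.ne a ha,
    ← Nat.card_congr (MonoidHom.ofInjective h.inj).toEquiv]

theorem exists_not_mem (h : TC t f S) : ∃ a : A, a * a = 1 ∧ a ≠ 1 ∧
    ∃ H : Subgroup A, a ∉ H ∧ IdxLeTwo H (centralizer {a}) := by
  obtain ⟨_, hu, -, a, rfl⟩ := thompson_idx' h.noIdx S (M := f.range)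
    (fun x hx y hy => h.idx x (h.le hx) y (h.le hy)) h.ord
  obtain ⟨g, hg⟩ := isConj_iff.1 hu
  refine ⟨a, h.inj (by rw [map_mul, ← hg, conj_mul, h.tt, map_one]; simp),
    fun e => h.t1 (by simpa [e] using hg),
    f.range.comap ((MulAut.conj g⁻¹).toMonoidHom.comp f), fun ⟨b, hb⟩ => h.ne b ?_,
    fun x hx y hy hx' hy' => ?_⟩
  · simpa [← hg, mul_assoc] using hb
  · have k : ∀ x ∈ centralizer ({a} : Set A), (MulAut.conj g⁻¹).toMonoidHom.comp f x ∈
        centralizer ({t} : Set G) := fun x hx => mem_cent.2 (by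
      have := congrArg f (mem_cent.1 hx)
      rw [map_mul, map_mul, ← hg] at this
      change g⁻¹ * f x * g⁻¹⁻¹ * t = t * (g⁻¹ * f x * g⁻¹⁻¹)
      calc _ = g⁻¹ * (f x * (g * t * g⁻¹)) * g := by group
        _ = _ := by rw [this]; group)
    rw [mem_comap, map_mul]
    exact h.idx _ (k x hx) _ (k y hy) hx' hy'

theorem four_or_five {m : ℕ} {f : alternatingGroup (Fin m) →* G} (h : TC t f S) :
    m = 4 ∨ m = 5 := by
  obtain ⟨a, ha, ha1, H, haH, hH⟩ := h.exists_not_mem
  by_contra hm
  rcases le_or_gt 6 m with h6 | h6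
  · refine haH ?_
    obtain ⟨b, hb, e⟩ := mem_of_idxLeTwo (H := H.map (alternatingGroup (Fin m)).subtype)
      (congrArg Subtype.val ha) a.2 (by simpa using h6) fun x hx y hy hx' hy' =>
      ⟨⟨x, hx.1⟩ * ⟨y, hy.1⟩, hH _ (mem_cent.2 (Subtype.ext (mem_cent.1 hx.2))) _
        (mem_cent.2 (Subtype.ext (mem_cent.1 hy.2))) (fun k => hx' ⟨_, k, rfl⟩)
        (fun k => hy' ⟨_, k, rfl⟩), rfl⟩
    rwa [← Subtype.ext e]
  · have : m ≤ 3 := by omega
    refine ha1 ?_
    clear haH hH ha1 h
    revert a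
    interval_cases m <;> decide

theorem js {f : J1.A5 →* G} (h : TC t f S) : J1.JS t f :=
  ⟨h.noIdx, h.ord, h.inj, h.comm, h.ne, h.cent, h.odd⟩

section four

variable {f : alternatingGroup (Fin 4) →* G}

omit [Finite G] in
theorem card_cent4 (h : TC t f S) : Nat.card (centralizer ({t} : Set G)) = 24 := by
  rw [h.card_cent, Nat.card_eq_fintype_card, show Fintype.card (alternatingGroup (Fin 4)) = 12 by decide]

omit [Finite G] in
theorem sq4 (h : TC t f S) {s : G} (hs : s ∈ (S : Subgroup G)) : s * s = 1 := by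
  obtain ⟨a, ha⟩ := h.cent s (mem_cent.1 (h.le hs))
  obtain ⟨k, hk⟩ := S.isPGroup' ⟨s * s, mul_mem hs hs⟩
  have h1 : (s * s) ^ 2 ^ k = 1 := congrArg Subtype.val hk
  have h2 : (s * s) ^ 3 = 1 := by
    rw [h.mul_self ha, ← map_pow, (by decide : ∀ a : alternatingGroup (Fin 4), (a * a) ^ 3 = 1) a,
      map_one]
  simpa [(Nat.Coprime.pow_left k (by norm_num) : (2 ^ k).gcd 3 = 1)] using pow_gcd_eq_one.2 ⟨h1, h2⟩

theorem mem4 (h : TC t f S) {s : G} (h1 : s * t = t * s) (h2 : s * s = 1) : s ∈ (S : Subgroup G) := by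
  let E : Subgroup G :=
    { carrier := {s | s * t = t * s ∧ s * s = 1}
      one_mem' := ⟨by simp, by simp⟩
      inv_mem' := fun {x} hx => by rw [inv_eq_of_mul_eq_one_right hx.2]; exact hx
      mul_mem' := fun {x y} hx hy => ⟨by rw [mul_assoc, hy.1, ← mul_assoc, hx.1, mul_assoc], by
        obtain ⟨a, ha⟩ := h.cent x hx.1
        obtain ⟨b, hb⟩ := h.cent y hy.1
        have k : x * y = f (a * b) ∨ x * y = t * f (a * b) := by
          rcases ha with rfl | rfl <;> rcases hb with rfl | rfl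
          exacts [Or.inl (map_mul f a b).symm, Or.inr (by rw [← mul_assoc, h.comm, map_mul, mul_assoc]),
            Or.inr (by rw [map_mul, mul_assoc]), Or.inl (h.tf_mul_tf a b)]
        rw [h.mul_self k, (by decide : ∀ a b : alternatingGroup (Fin 4), a * a = 1 → b * b = 1 →
          a * b * (a * b) = 1) a b (h.inj (by rw [← h.mul_self ha, hx.2, map_one]))
          (h.inj (by rw [← h.mul_self hb, hy.2, map_one])), map_one]⟩ }
  have hE : IsPGroup 2 E := fun x => ⟨1, Subtype.ext (by simpa [pow_two] using x.2.2)⟩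
  rw [← S.is_maximal' hE fun x hx => ⟨mem_cent.1 (h.le hx), h.sq4 hx⟩]
  exact ⟨h1, h2⟩

theorem le_normalizer4 (h : TC t f S) :
    centralizer {t} ≤ normalizer ((S : Subgroup G) : Set G) := fun g hg =>
  mem_normalizer_iff_conj.2 fun s hs => h.mem4
    (mem_cent.1 (mul_mem (mul_mem hg (h.le hs)) (inv_mem hg))) (by rw [conj_mul, h.sq4 hs]; simp)

theorem card4 (h : TC t f S) : Nat.card (S : Subgroup G) = 8 := by
  have h1 := Trans.card_mul_relIndex h.le
  have h2 : ¬ 2 ∣ (S : Subgroup G).relIndex (centralizer {t}) := fun e =>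
    S.not_dvd_index (e.trans (relIndex_dvd_index_of_le h.le))
  obtain ⟨k, hk⟩ := IsPGroup.iff_card.1 S.isPGroup'
  have h3 : ¬ 3 ∣ Nat.card (S : Subgroup G) := fun e => by
    have := Nat.Prime.dvd_of_dvd_pow Nat.prime_three (hk ▸ e); omega
  rw [h.card_cent4] at h1
  have := Nat.le_of_dvd (by norm_num) (Dvd.intro_left _ h1)
  generalize (S : Subgroup G).relIndex (centralizer {t}) = r at *
  interval_cases r <;> omega

theorem exists_e8 (h : TC t f S) : ∃ ρ, E8 t S ρ f.range := by
  obtain ⟨r, hr1, hr, hf⟩ : ∃ r : alternatingGroup (Fin 4), r ≠ 1 ∧ r ^ 3 = 1 ∧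
    ∀ a, a * a = 1 → r * a = a * r → a = 1 := by decide
  refine ⟨f r, h.noIdx, h.card4, fun s => h.sq4, h.tS, h.t1,
    fun x hx y hy => h.idx x (h.le hx) y (h.le hy), fun ⟨a, ha⟩ => h.ne a ha,
    by rw [orderOf_injective f h.inj, orderOf_eq_prime hr hr1],
    h.le_normalizer4 (mem_cent.2 (h.comm r)), h.comm r, fun s hs hc => ?_⟩
  obtain ⟨a, ha⟩ := h.cent s (mem_cent.1 (h.le hs))
  have h1 : a = 1 := hf a (h.inj (by rw [← h.mul_self ha, h.sq4 hs, map_one])) (h.inj (by
    rw [map_mul, map_mul]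
    rcases ha with rfl | rfl
    · exact hc
    · rwa [← mul_assoc, h.comm, mul_assoc, mul_assoc, mul_right_inj] at hc))
  simpa [h1] using ha

theorem eq_bot_of_odd4 (h : TC t f S) {K : Subgroup G} [hK : K.Normal] (ho : Odd (Nat.card K)) :
    K = ⊥ := by
  obtain ⟨ρ, h8⟩ := h.exists_e8
  have h0 : ∀ k ∈ K, k * k = 1 → k = 1 := fun k hk e => by
    by_contra h1
    exact (odd_card_iff_forall_not_involution K).1 ho k hk (orderOf_eq_prime (by rw [pow_two, e]) h1)
  have h1 : ∀ k ∈ K, k * t = t * k → k = 1 := fun k hk hc => by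
    obtain ⟨a, ha⟩ := h.cent k hc
    have hk2 : f (a * a) ∈ K := h.mul_self ha ▸ mul_mem hk hk
    refine h0 k hk ?_
    rw [h.mul_self ha]
    rcases (by decide : ∀ b : alternatingGroup (Fin 4), b * b = 1 ∨ ∃ u, b * (u * b * u⁻¹)⁻¹ ≠ 1 ∧
      b * (u * b * u⁻¹)⁻¹ * (b * (u * b * u⁻¹)⁻¹) = 1) (a * a) with e | ⟨u, e1, e2⟩
    · exact h0 _ hk2 (by rw [← map_mul, e, map_one])
    · refine absurd (h.inj ?_) e1
      rw [map_one]
      refine h0 _ ?_ (by rw [← map_mul, e2, map_one])
      rw [map_mul, map_inv, map_mul f _ u⁻¹, map_mul f u, map_inv]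
      exact mul_mem hk2 (inv_mem (hK.conj_mem _ hk2 _))
  have h2 : ∀ s : G, orderOf s = 2 → ∀ k ∈ K, k * s = s * k → k ∈ (⊥ : Subgroup G) := by
    intro s hs k hk hc
    obtain ⟨c, rfl⟩ := h8.exists_conj' hs
    have := h1 (c⁻¹ * k * c) (hK.conj_mem' k hk c) (by
      calc _ = c⁻¹ * (k * (c * t * c⁻¹)) * c := by group
        _ = _ := by rw [hc]; group)
    rw [mem_bot]
    calc k = c * (c⁻¹ * k * c) * c⁻¹ := by group
      _ = 1 := by rw [this]; group
  obtain ⟨u, hu1, hu⟩ : ∃ u : alternatingGroup (Fin 4), u ≠ 1 ∧ u * u = 1 := by decide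
  have hu' : f u * f u = 1 := by rw [← map_mul, hu, map_one]
  have ho' : orderOf (f u) = 2 := by
    rw [orderOf_injective f h.inj, orderOf_eq_prime (by rw [pow_two, hu]) hu1]
  exact eq_bot_iff.2 (le_of_four h.tt hu' h.t1 (fun e => hu1 (h.inj (by rw [e, map_one])))
    (h.ne u).symm (h.comm u).symm ho (normalizer_eq_top K ▸ mem_top _) (normalizer_eq_top K ▸ mem_top _)
    (h2 t h.ord) (h2 _ ho')
    (h2 _ (orderOf_eq_prime (by rw [pow_two, h.tf_mul_tf, hu, map_one]) fun e => h.ne u (by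
      rw [← inv_eq_of_mul_eq_one_right e, inv_eq_of_mul_eq_one_right h.tt]))))

end four

end TC

/-- A group without subgroup of index two and with a 2-central involution with centraliser
`2 × A₅` is simple. -/
theorem simple_of_js {G : Type*} [Group G] [Finite G] {t : G} {f : J1.A5 →* G} (h : J1.JS t f) :
    IsSimpleGroup G := by
  have hA : ∀ N : Subgroup J1.A5, N.Normal → N ≠ ⊥ → N = ⊤ := fun N hN h1 =>
    hN.eq_bot_or_eq_top.resolve_left h1
  have hu : orderOf (f J1.pu) = 2 := by
    rw [h.orderOf_f]; exact orderOf_eq_prime (by decide +kernel) (by decide +kernel)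
  have key : ∀ K : Subgroup G, K.Normal → K ≠ ⊥ → centralizer {t} ≤ K := fun K hK h1 => by
    obtain ⟨s, hs, hs2⟩ : ∃ s ∈ K, orderOf s = 2 := by
      by_contra e
      push Not at e
      exact h1 (h.eq_bot_of_odd ((odd_card_iff_forall_not_involution K).2 e))
    have h2 : ∀ y : G, orderOf y = 2 → y ∈ K := fun y hy => by
      obtain ⟨g, rfl⟩ := h.exists_conj hy
      obtain ⟨c, rfl⟩ := h.exists_conj hs2
      simpa [mul_assoc] using hK.conj_mem _ (hK.conj_mem' _ hs c) g
    have h3 : K.comap f = ⊤ := hA _ (hK.comap f) fun e => by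
      have : J1.pu ∈ K.comap f := h2 _ hu
      rw [e, mem_bot] at this
      exact absurd this (by decide +kernel)
    have h4 : ∀ a, f a ∈ K := fun a => show a ∈ K.comap f from h3 ▸ mem_top a
    intro g hg
    obtain ⟨a, rfl | rfl⟩ := h.cent g (mem_cent.1 hg)
    exacts [h4 a, mul_mem (h2 t h.ord) (h4 a)]
  have := nontrivial_of_ne _ _ h.t1
  refine ⟨fun K hK => or_iff_not_imp_left.2 fun h1 => ?_⟩
  have hK' := key K hK h1
  have htK : t ∈ K := hK' (mem_cent.2 rfl)
  have hf : ∀ a, f a ∈ K := fun a => hK' (mem_cent.2 (h.comm a))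
  have hD : centralizer {t} ≤ ⁅K, K⁆ := key _ inferInstance fun e => by
    have : f ⁅J1.pa, J1.pb⁆ ∈ ⁅K, K⁆ := by
      rw [map_commutatorElement]; exact commutator_mem_commutator (hf _) (hf _)
    rw [e, mem_bot, h.f_eq_one] at this
    exact absurd this (by decide +kernel)
  have hsub : (centralizer ({(⟨t, htK⟩ : K)} : Set K)) = (centralizer {t}).subgroupOf K := by
    ext x
    rw [mem_subgroupOf, mem_cent, mem_cent, Subtype.ext_iff]
    rfl
  have hodd : Odd ((centralizer {t}).relIndex K) := h.odd.of_dvd_nat (relIndex_dvd_index_of_le hK')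
  have h' : J1.JS (⟨t, htK⟩ : K) (f.codRestrict K hf) :=
    ⟨fun H hH => by
      have := H.normal_of_index_eq_two hH
      have h2 : (centralizer {t}).subgroupOf K ≤ H := fun x hx => by
        have h3 : (x : G) ∈ (commutator K).map K.subtype := by
          rw [map_subtype_commutator]; exact hD hx
        obtain ⟨y, hy, e⟩ := h3
        rw [← Subtype.ext e]
        refine (commutator_le.2 fun a _ b _ => ?_ : commutator K ≤ H) hy
        rw [commutatorElement_def, mul_assoc, ← mul_inv_rev, mul_mem_iff_of_index_two hH, inv_mem_iff,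
          mul_mem_iff_of_index_two hH, mul_mem_iff_of_index_two hH]
        tauto
      exact Nat.not_even_iff_odd.2 hodd (even_iff_two_dvd.2 (hH ▸ index_dvd_of_le h2)),
    by rw [Subgroup.orderOf_mk, h.ord], fun a b e => h.inj (congrArg Subtype.val e),
    fun a => Subtype.ext (h.comm a), fun a e => h.ne a (congrArg Subtype.val e),
    fun g hg => (h.cent g (congrArg Subtype.val hg)).imp fun a ha =>
      ha.imp (fun e => Subtype.ext e) fun e => Subtype.ext e, hsub ▸ hodd⟩
  refine eq_top_iff.2 fun g _ => ?_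
  obtain ⟨k, hk⟩ := h'.exists_conj (s := ⟨g * t * g⁻¹, hK.conj_mem t htK g⟩)
    (by rw [Subgroup.orderOf_mk, ← h.ord]; exact (MulAut.conj g).orderOf_eq t)
  have hk' : (k : G) * t * (k : G)⁻¹ = g * t * g⁻¹ := congrArg Subtype.val hk
  refine (mul_mem_cancel_left (inv_mem k.2)).1 (hK' (mem_cent.2 ?_))
  calc (k : G)⁻¹ * g * t = (k : G)⁻¹ * (g * t * g⁻¹) * g := by group
    _ = _ := by rw [← hk']; group

end Cfsg.Lib.WalCor
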